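import Mathlib

/-!
# An element of maximal order fixed by a group of automorphisms of odd order
-/

namespace CF.E8b

open Subgroup

theorem A_two (a : ZMod 2) {k : ℕ} : 2 ^ (k + 1) • a = 0 := by
  rw [nsmul_eq_mul, pow_succ, Nat.cast_mul, show ((2 : ℕ) : ZMod 2) = 0 from rfl, mul_zero, zero_mul]

theorem A_fix {P : Type*} [Group P] [Finite P] {n : ℕ} (hn : 2 ≤ n)
    (φ : P ≃* Multiplicative (ZMod (2 ^ n) × ZMod 2 × ZMod 2 × ZMod 2))
    (E : Subgroup (MulAut P)) (hE : ¬ 2 ∣ Nat.card E) :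
    ∃ z : P, (∀ σ ∈ E, σ z = z) ∧ (zpowers z).index = 8 ∧ ∀ x : P, x * x ∈ zpowers z := by
  classical
  obtain ⟨m, rfl⟩ := Nat.exists_eq_add_of_le' hn
  letI : CommGroup P := { ‹Group P› with
    mul_comm := fun a b => φ.injective (by rw [map_mul, map_mul, mul_comm]) }
  have := Fintype.ofFinite E
  set y : P := φ.symm (Multiplicative.ofAdd (1, 0, 0, 0)) with hy
  have hpow : ∀ (x : P) (k : ℕ), x ^ 2 ^ (k + 1) = y ^ (2 ^ (k + 1) * (φ x).toAdd.1.val) := by
    intro x k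
    refine φ.injective (Multiplicative.toAdd.injective ?_)
    rw [map_pow φ, map_pow φ, hy, MulEquiv.apply_symm_apply, toAdd_pow, toAdd_pow, toAdd_ofAdd]
    refine Prod.ext ?_ (Prod.ext ?_ (Prod.ext ?_ ?_))
    · simp
    · simpa using A_two (k := k) (φ x).toAdd.2.1
    · simpa using A_two (k := k) (φ x).toAdd.2.2.1
    · simpa using A_two (k := k) (φ x).toAdd.2.2.2
  have hy1 : ∀ k : ℕ, y ^ k = 1 ↔ 2 ^ (m + 2) ∣ k := by
    intro k
    rw [← φ.injective.eq_iff, map_pow, hy, MulEquiv.apply_symm_apply, map_one, ← ofAdd_nsmul,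
      ofAdd_eq_one, ← ZMod.natCast_eq_zero_iff]
    simp [Prod.ext_iff]
  have hall : ∀ x : P, x ^ 2 ^ (m + 2) = 1 := fun x => by
    rw [hpow, hy1]; exact dvd_mul_right _ _
  set w := y ^ 2 ^ (m + 1) with hw
  have hw1 : w ≠ 1 := fun h => by
    have := Nat.le_of_dvd (by positivity) ((hy1 _).1 h)
    rw [pow_succ 2 (m + 1)] at this
    have := Nat.two_pow_pos (m + 1)
    omega
  have hw2 : w ^ 2 = 1 := by rw [hw, ← pow_mul, ← pow_succ, hall]
  have hodd : ∀ k : ℕ, ¬ 2 ∣ k → w ^ k = w := fun k hk => by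
    rw [← Nat.div_add_mod k 2, pow_add, pow_mul, hw2, one_pow, one_mul,
      show k % 2 = 1 by omega, pow_one]
  have hg : ∀ x : P, x ^ 2 ^ (m + 1) = 1 ∨ x ^ 2 ^ (m + 1) = w := fun x => by
    rw [hpow, pow_mul, ← hw]
    by_cases h : 2 ∣ (φ x).toAdd.1.val
    · obtain ⟨c, hc⟩ := h
      left; rw [hc, pow_mul, hw2, one_pow]
    · exact Or.inr (hodd _ h)
  have hσ : ∀ σ : MulAut P, σ y ^ 2 ^ (m + 1) = w := fun σ =>
    (hg _).resolve_left fun h => hw1 (by
      rw [← map_pow, ← hw] at h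
      exact σ.injective (h.trans (map_one σ).symm))
  set z : P := ∏ σ : E, (σ : MulAut P) y with hz
  have hz1 : z ^ 2 ^ (m + 1) = w := by
    rw [hz, ← Finset.prod_pow, Finset.prod_congr rfl fun σ _ => hσ _, Finset.prod_const,
      Finset.card_univ, ← Nat.card_eq_fintype_card, hodd _ hE]
  have := Fact.mk Nat.prime_two
  have ho : ∀ x : P, x ^ 2 ^ (m + 1) = w → orderOf x = 2 ^ (m + 2) ∧
      orderOf (x ^ 2) = 2 ^ (m + 1) := fun x hx =>
    ⟨orderOf_eq_prime_pow (by rw [hx]; exact hw1) (hall x), orderOf_eq_prime_pow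
      (by rw [← pow_mul, ← pow_succ', hx]; exact hw1) (by rw [← pow_mul, ← pow_succ', hall])⟩
  have hsq : ∀ x : P, x ^ 2 ∈ zpowers (y ^ 2) := fun x => by
    have := hpow x 0
    rw [zero_add, pow_one, pow_mul] at this
    rw [this]
    exact npow_mem_zpowers _ _
  have he : zpowers (z ^ 2) = zpowers (y ^ 2) := eq_of_le_of_card_ge (zpowers_le_of_mem (hsq z))
    (by rw [Nat.card_zpowers, Nat.card_zpowers, (ho z hz1).2, (ho y rfl).2])
  refine ⟨z, fun τ hτ => ?_, ?_, fun x => ?_⟩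
  · rw [hz, map_prod]
    exact Fintype.prod_equiv (Equiv.mulLeft (⟨τ, hτ⟩ : E)) _ _ fun σ => rfl
  · have h1 := (zpowers z).card_mul_index
    rw [Nat.card_zpowers, (ho z hz1).1, Nat.card_congr φ.toEquiv] at h1
    simp only [Nat.card_eq_fintype_card, Fintype.card_multiplicative, Fintype.card_prod,
      ZMod.card] at h1
    exact Nat.eq_of_mul_eq_mul_left (by positivity) h1
  · rw [← sq]
    exact zpowers_le_of_mem (npow_mem_zpowers z 2) (he.ge (hsq x))

end CF.E8b
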